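import Mathlib

set_option autoImplicit false

namespace Cfsg.Agent.Lead

/-- Piece D of S4607: linear independence of the reductions lifts to any field containing
the ring. -/
theorem k2_li_lift {R : Type*} {k : Type*} {L : Type*} [CommRing R] [Field k] [Field L]
    (π : R →+* k) (ι : R →+* L) (hι : Function.Injective ι) {m n : Type*} [Fintype n]
    (v : m → n → R) (h : LinearIndependent k (fun i => (fun j => π (v i j)))) :
    LinearIndependent L (fun i => (fun j => ι (v i j))) := by
  classical
  set vk : m → n → k := fun i j => π (v i j) with hvk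
  have hinj : Function.Injective vk := h.injective
  let e : n → n → k := fun j => Pi.single j 1
  obtain ⟨b, hbt, hsb, hspan, hbli⟩ :=
    exists_linearIndepOn_id_extension (K := k) h.linearIndepOn_id
      (Set.subset_union_left (t := Set.range e))
  have hbli' : LinearIndependent k (fun x : b => (x : n → k)) := hbli
  have hbtop : ⊤ ≤ Submodule.span k (Set.range (fun x : b => (x : n → k))) := by
    rw [Subtype.range_coe]
    have h1 : Submodule.span k (Set.range e) = ⊤ := by
      have h2 := (Pi.basisFun k n).span_eq
      have h3 : Set.range (Pi.basisFun k n) = Set.range e := by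
        ext x
        simp [e, Pi.basisFun_apply]
      rw [← h3]; exact h2
    rw [← h1]
    exact Submodule.span_le.mpr (fun x hx => hspan (Set.mem_union_right _ hx))
  let B : Module.Basis b k (n → k) := Module.Basis.mk hbli' hbtop
  have : Fintype b := FiniteDimensional.fintypeBasisIndex B
  have hcard : Fintype.card b = Fintype.card n := by
    have h1 := Module.finrank_eq_card_basis B
    rw [Module.finrank_fintype_fun_eq_card] at h1
    exact h1.symm
  let eq : b ≃ n := Fintype.equivOfCardEq hcard
  have hlift : ∀ x : b, ∃ w : n → R, (fun j => π (w j)) = (x : n → k) ∧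
      (∀ i, vk i = (x : n → k) → w = v i) := by
    intro x
    by_cases hx : (x : n → k) ∈ Set.range vk
    · obtain ⟨i, hi⟩ := hx
      exact ⟨v i, hi, fun i' hi' => by rw [hinj (hi'.trans hi.symm)]⟩
    · rcases hbt x.2 with hx' | ⟨j, hj⟩
      · exact absurd hx' hx
      · refine ⟨Pi.single j 1, ?_, fun i hi => absurd ⟨i, hi⟩ hx⟩
        rw [← hj]; funext j'
        simp only [e, Pi.single_apply]
        split_ifs <;> simp
  choose W hW hWv using hlift
  let A : Matrix b b R := Matrix.of fun x y => W x (eq y)
  have hAk : LinearIndependent k (A.map π).row := by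
    have hrow : (A.map π).row = fun x : b => (LinearEquiv.funCongrLeft k k eq) (x : n → k) := by
      funext x y
      have h1 := congrFun (hW x) (eq y)
      simp only [Matrix.row, Matrix.map_apply, A, Matrix.of_apply, LinearEquiv.funCongrLeft_apply,
        LinearMap.funLeft_apply]
      exact h1
    rw [hrow]
    exact hbli'.map' _ (LinearEquiv.ker _)
  have hunit : IsUnit (A.map π) := Matrix.linearIndependent_rows_iff_isUnit.mp hAk
  have hdetk : (A.map π).det ≠ 0 := ((Matrix.isUnit_iff_isUnit_det _).mp hunit).ne_zero
  have hdetR : A.det ≠ 0 := by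
    intro h0
    apply hdetk
    rw [← RingHom.mapMatrix_apply, ← RingHom.map_det, h0, map_zero]
  have hdetL : (A.map ι).det ≠ 0 := by
    rw [← RingHom.mapMatrix_apply, ← RingHom.map_det]
    exact fun h0 => hdetR (hι (h0.trans (map_zero ι).symm))
  have hAL : LinearIndependent L (A.map ι).row :=
    Matrix.linearIndependent_rows_iff_isUnit.mpr
      ((Matrix.isUnit_iff_isUnit_det _).mpr (IsUnit.mk0 _ hdetL))
  have hx : ∀ i, vk i ∈ b := fun i => hsb ⟨i, rfl⟩
  let φ : m → b := fun i => ⟨vk i, hx i⟩
  have hφ : Function.Injective φ := fun i i' hii => hinj (congrArg Subtype.val hii)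
  have hcomp := hAL.comp φ hφ
  have hfam : (fun i => (fun j => ι (v i j))) =
      fun i => (LinearEquiv.funCongrLeft L L eq.symm) ((A.map ι).row (φ i)) := by
    funext i j
    have hWi : W (φ i) = v i := hWv (φ i) i rfl
    simp only [Matrix.row, Matrix.map_apply, A, Matrix.of_apply, LinearEquiv.funCongrLeft_apply,
      LinearMap.funLeft_apply, hWi, Equiv.apply_symm_apply]
  rw [hfam]
  exact hcomp.map' _ (LinearEquiv.ker _)

/-- For an idempotent matrix `Q` over a field, `rank Q + rank (1 - Q)` is the size. -/
theorem k2_rank_idem {K : Type*} [Field K] {n : Type*} [Fintype n] [DecidableEq n]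
    (Q : Matrix n n K) (hQ : Q * Q = Q) : Q.rank + (1 - Q).rank = Fintype.card n := by
  have h1 := LinearMap.finrank_range_add_finrank_ker Q.mulVecLin
  have h2 : LinearMap.ker Q.mulVecLin = LinearMap.range (1 - Q).mulVecLin := by
    ext x
    rw [LinearMap.mem_ker, LinearMap.mem_range]
    constructor
    · intro hx
      refine ⟨x, ?_⟩
      rw [Matrix.mulVecLin_apply] at hx ⊢
      rw [Matrix.sub_mulVec, Matrix.one_mulVec, hx, sub_zero]
    · rintro ⟨y, rfl⟩
      rw [Matrix.mulVecLin_apply, Matrix.mulVecLin_apply, Matrix.mulVec_mulVec, Matrix.mul_sub,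
        Matrix.mul_one, hQ, sub_self, Matrix.zero_mulVec]
  rw [h2, Module.finrank_fintype_fun_eq_card] at h1
  exact h1

/-- The rank of the reduction is at most the rank over the big field. -/
theorem k2_rank_le {R : Type*} {k : Type*} {L : Type*} [CommRing R] [Field k] [Field L]
    (π : R →+* k) (ι : R →+* L) (hι : Function.Injective ι) {n : Type*} [Fintype n]
    [DecidableEq n] (P : Matrix n n R) : (P.map π).rank ≤ (P.map ι).rank := by
  classical
  obtain ⟨b, hbt, hbspan, hbli⟩ := exists_linearIndependent k (Set.range (P.map π).col)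
  have hcol : ∀ x : b, ∃ j : n, (P.map π).col j = (x : n → k) := fun x => hbt x.2
  choose j hj using hcol
  have hfam : LinearIndependent k (fun x : b => (fun i => π (P i (j x)))) := by
    have h0 : (fun x : b => (fun i => π (P i (j x)))) = fun x : b => (x : n → k) := by
      funext x; rw [← hj x]; rfl
    rw [h0]; exact hbli
  have hL := k2_li_lift π ι hι (fun x : b => fun i => P i (j x)) hfam
  have hfin : Finite b := hbli.finite
  have : Fintype b := Fintype.ofFinite b
  have h1 : (P.map π).rank = Fintype.card b := by
    rw [Matrix.rank_eq_finrank_span_cols, ← hbspan]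
    have h0 := finrank_span_eq_card hbli
    rwa [Subtype.range_coe] at h0
  have h2 : Fintype.card b ≤ (P.map ι).rank := by
    rw [Matrix.rank_eq_finrank_span_cols, ← finrank_span_eq_card hL]
    apply Submodule.finrank_mono
    apply Submodule.span_mono
    rintro _ ⟨x, rfl⟩
    exact ⟨j x, rfl⟩
  omega

/-- Piece D of S4607: an idempotent matrix keeps its rank under reduction. -/
theorem k2_rank_map {R : Type*} {k : Type*} {L : Type*} [CommRing R] [Field k] [Field L]
    (π : R →+* k) (ι : R →+* L) (hι : Function.Injective ι) {n : Type*} [Fintype n]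
    [DecidableEq n] (P : Matrix n n R) (hP : P * P = P) :
    (P.map π).rank = (P.map ι).rank := by
  have h1 := k2_rank_le π ι hι P
  have h2 := k2_rank_le π ι hι (1 - P)
  have hπ : (P.map π) * (P.map π) = P.map π := by
    rw [← RingHom.mapMatrix_apply, ← map_mul, hP]
  have hι' : (P.map ι) * (P.map ι) = P.map ι := by
    rw [← RingHom.mapMatrix_apply, ← map_mul, hP]
  have h3 := k2_rank_idem (P.map π) hπ
  have h4 := k2_rank_idem (P.map ι) hι'
  have h5 : (1 - P).map π = 1 - P.map π := by
    rw [← RingHom.mapMatrix_apply, ← RingHom.mapMatrix_apply, map_sub, map_one]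
  have h6 : (1 - P).map ι = 1 - P.map ι := by
    rw [← RingHom.mapMatrix_apply, ← RingHom.mapMatrix_apply, map_sub, map_one]
  rw [h5, h6] at h2
  omega

end Cfsg.Agent.Lead
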