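import Mathlib

set_option autoImplicit false

universe u v

namespace Cfsg.Agent.Lead

/-- Piece B3 of S4607: the dimension count `dim 𝔅 = 2 n²`. -/
theorem k2_count {k : Type v} [Field k] {𝔅 : Type u} [Ring 𝔅] [Algebra k 𝔅]
    [FiniteDimensional k 𝔅] (lam : 𝔅 →ₗ[k] k) (hsym : ∀ x y, lam (x * y) = lam (y * x))
    (hnd : ∀ x, (∀ y, lam (x * y) = 0) → x = 0)
    (z : 𝔅) (hzc : ∀ a, z * a = a * z) (hzz : z * z = 0)
    (n : ℕ) (g : 𝔅 →ₐ[k] Matrix (Fin n) (Fin n) k) (hg : Function.Surjective g)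
    (hker : ∀ x, g x = 0 ↔ z * x = 0)
    (hsq : ∀ x y, g x = 0 → g y = 0 → x * y = 0) :
    Module.finrank k 𝔅 = 2 * n ^ 2 := by
  classical
  let gl : 𝔅 →ₗ[k] Matrix (Fin n) (Fin n) k := g.toLinearMap
  let Lz : 𝔅 →ₗ[k] 𝔅 := LinearMap.mulLeft k z
  have hgl : ∀ x, gl x = g x := fun x => rfl
  have hLz : ∀ x, Lz x = z * x := fun x => rfl
  have hJ : LinearMap.ker Lz = LinearMap.ker gl := by
    ext x
    rw [LinearMap.mem_ker, LinearMap.mem_ker, hgl, hLz, hker]
  have h1 := LinearMap.finrank_range_add_finrank_ker gl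
  have hrange : Module.finrank k (LinearMap.range gl) = n ^ 2 := by
    have htop : LinearMap.range gl = ⊤ := LinearMap.range_eq_top.mpr hg
    rw [htop, finrank_top, Module.finrank_matrix]
    simp
    ring
  have h2 := LinearMap.finrank_range_add_finrank_ker Lz
  have h3 : LinearMap.range Lz ≤ LinearMap.ker gl := by
    rintro _ ⟨x, rfl⟩
    rw [LinearMap.mem_ker, hgl, hLz, hker, ← mul_assoc, hzz, zero_mul]
  have h4 := Submodule.finrank_mono h3
  let Ψ : 𝔅 →ₗ[k] Module.Dual k 𝔅 := (LinearMap.mul k 𝔅).compr₂ lam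
  have hΨ : ∀ x y, Ψ x y = lam (x * y) := fun x y => rfl
  have hΨinj : Function.Injective Ψ := by
    rw [← LinearMap.ker_eq_bot, LinearMap.ker_eq_bot']
    intro x hx
    exact hnd x (fun y => by rw [← hΨ, hx]; rfl)
  have h5 : (LinearMap.ker gl).map Ψ ≤ (LinearMap.ker gl).dualAnnihilator := by
    rintro _ ⟨x, hx, rfl⟩
    rw [Submodule.mem_dualAnnihilator]
    intro y hy
    have hx' : g x = 0 := LinearMap.mem_ker.mp hx
    have hy' : g y = 0 := LinearMap.mem_ker.mp hy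
    rw [hΨ, hsq x y hx' hy', map_zero]
  have h6 := Submodule.finrank_mono h5
  have h7 : Module.finrank k ((LinearMap.ker gl).map Ψ) = Module.finrank k (LinearMap.ker gl) :=
    LinearEquiv.finrank_eq (Submodule.equivMapOfInjective Ψ hΨinj _).symm
  have h8 := Subspace.finrank_add_finrank_dualAnnihilator_eq (LinearMap.ker gl)
  rw [hJ] at h2
  generalize n ^ 2 = N at hrange ⊢
  omega

end Cfsg.Agent.Lead
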