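import Mathlib

set_option autoImplicit false

namespace Cfsg.Agent.Lead

/-- PIECE C of helper95's S4346 plan: no `(22, 12, 4)` "point-Sylow geometry" exists. -/
theorem ps22_geom_false {Ω : Type*} [Finite Ω] (hΩ : Nat.card Ω = 22)
    (adj : Ω → Ω → Prop) (line : Ω → Ω → Set Ω)
    (hsymm : ∀ γ δ, adj γ δ → adj δ γ)
    (hirr : ∀ γ, ¬ adj γ γ)
    (hmem : ∀ γ δ, adj γ δ → γ ∈ line γ δ ∧ δ ∈ line γ δ)
    (hcomm : ∀ γ δ, adj γ δ → line γ δ = line δ γ)
    (hline : ∀ γ δ ε, adj γ δ → ε ∈ line γ δ → ε ≠ γ → adj γ ε ∧ line γ ε = line γ δ)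
    (hfour : ∀ γ δ, adj γ δ → (line γ δ).ncard = 4)
    (hdeg : ∀ γ, {δ | adj γ δ}.ncard = 12)
    (hG2 : ∀ γ δ ε ζ, adj γ δ → adj γ ε → ε ∉ line γ δ → ζ ∈ line γ δ → adj ζ ε →
      ∀ ε' ∈ line γ ε, ε' ≠ γ → adj ζ ε') : False := by
  classical
  have := Fintype.ofFinite Ω
  have hcard : Fintype.card Ω = 22 := by rw [← Nat.card_eq_fintype_card]; exact hΩ
  have L5 : ∀ g d e z, adj g d → e ∈ line g d → z ∈ line g d → e ≠ z →
      adj e z ∧ line e z = line g d := by
    intro g d e z hgd he hz hez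
    by_cases heg : e = g
    · subst heg
      exact hline e d z hgd hz (Ne.symm hez)
    · obtain ⟨h1, h2⟩ := hline g d e hgd he heg
      have h3 : line e g = line g d := by rw [← hcomm g e h1, h2]
      have h4 := hline e g z (hsymm _ _ h1) (by rw [h3]; exact hz) (Ne.symm hez)
      exact ⟨h4.1, by rw [h4.2, h3]⟩
  have hne : ∀ x y, adj x y → x ≠ y := by
    intro x y h hxy
    subst hxy
    exact hirr x h
  let D : Ω → Finset Ω := fun x => Finset.univ.filter (fun y => adj x y)
  have hDmem : ∀ x y, y ∈ D x ↔ adj x y := by intro x y; simp [D]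
  have hDcard : ∀ x, (D x).card = 12 := by
    intro x
    rw [← hdeg x, ← Set.ncard_coe_finset]
    congr 1; ext y; simp [D]
  let L : Ω → Ω → Finset Ω := fun x y => (line x y).toFinset
  have hLmem : ∀ x y z, z ∈ L x y ↔ z ∈ line x y := by intro x y z; simp [L]
  have hLcard : ∀ x y, adj x y → (L x y).card = 4 := by
    intro x y h
    rw [← hfour x y h, Set.ncard_eq_toFinset_card']
  have hX : ∀ a, (insert a (D a)).card = 13 := by
    intro a
    have haD : a ∉ D a := by rw [hDmem]; exact hirr a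
    rw [Finset.card_insert_of_notMem haD, hDcard]
  by_cases hB : ∀ a g d, adj a g → adj a d → adj g d → d ∈ line a g
  · -- Case (B)
    obtain ⟨a⟩ : Nonempty Ω := by
      rw [← Fintype.card_pos_iff, hcard]; norm_num
    have hN : ((insert a (D a))ᶜ).card = 9 := by rw [Finset.card_compl, hX, hcard]
    have key : ∀ g, adj a g → (insert a (D a))ᶜ ⊆ D g := by
      intro g hag
      have h1 : D g ∩ insert a (D a) ⊆ (L a g).erase g := by
        intro y hy
        rw [Finset.mem_inter, hDmem, Finset.mem_insert, hDmem] at hy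
        rw [Finset.mem_erase, hLmem]
        refine ⟨(hne g y hy.1).symm, ?_⟩
        rcases hy.2 with rfl | hay
        · exact (hmem _ _ hag).1
        · exact hB a g y hag hay hy.1
      have h2 : (D g ∩ insert a (D a)).card ≤ 3 := by
        refine (Finset.card_le_card h1).trans ?_
        rw [Finset.card_erase_of_mem (by rw [hLmem]; exact (hmem _ _ hag).2), hLcard _ _ hag]
      have h3 := Finset.card_sdiff_add_card_inter (D g) (insert a (D a))
      rw [hDcard] at h3
      have h4 : D g \ insert a (D a) = (insert a (D a))ᶜ := by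
        apply Finset.eq_of_subset_of_card_le
        · intro y hy
          rw [Finset.mem_sdiff] at hy
          exact Finset.mem_compl.mpr hy.2
        · rw [hN]; omega
      rw [← h4]; exact Finset.sdiff_subset
    obtain ⟨b, hb⟩ : ((insert a (D a))ᶜ).Nonempty := by
      rw [← Finset.card_pos, hN]; norm_num
    obtain ⟨g, hg⟩ : (D a).Nonempty := by rw [← Finset.card_pos, hDcard]; norm_num
    have hag : adj a g := (hDmem a g).mp hg
    have hbX : b ∉ insert a (D a) := Finset.mem_compl.mp hb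
    have hba : b ≠ a := fun h => hbX (h ▸ Finset.mem_insert_self _ _)
    have hnab : ¬ adj a b := fun h => hbX (Finset.mem_insert_of_mem ((hDmem a b).mpr h))
    have hsub : D a ⊆ D b := by
      intro y hy
      rw [hDmem] at hy ⊢
      have := key y hy hb
      rw [hDmem] at this
      exact hsymm _ _ this
    have heq : D a = D b := Finset.eq_of_subset_of_card_le hsub (by rw [hDcard, hDcard])
    have hbg : adj b g := by rw [← hDmem, ← heq]; exact hg
    obtain ⟨g', hg'L, hg'⟩ : ∃ g' ∈ L b g, g' ∉ ({b, g} : Finset Ω) := by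
      by_contra hcon
      push Not at hcon
      have : (L b g).card ≤ 2 :=
        (Finset.card_le_card (fun x hx => hcon x hx)).trans Finset.card_le_two
      rw [hLcard _ _ hbg] at this; omega
    have hg'b : g' ≠ b := by intro h; apply hg'; simp [h]
    have hg'g : g' ≠ g := by intro h; apply hg'; simp [h]
    rw [hLmem] at hg'L
    have hbg' : adj b g' := (hline b g g' hbg hg'L hg'b).1
    have hag' : adj a g' := by rw [← hDmem, heq, hDmem]; exact hbg'
    obtain ⟨hgg', hlgg'⟩ := L5 b g g g' hbg (hmem _ _ hbg).2 hg'L (Ne.symm hg'g)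
    have h5 : g' ∈ line a g := hB a g g' hag hag' hgg'
    obtain ⟨_, hl2⟩ := L5 a g g g' hag (hmem _ _ hag).2 h5 (Ne.symm hg'g)
    have h6 : a ∈ line b g := by rw [← hlgg', hl2]; exact (hmem _ _ hag).1
    exact hnab (hsymm _ _ (hline b g a hbg h6 (Ne.symm hba)).1)
  · -- Case (A)
    push Not at hB
    obtain ⟨a, g, d, hag, had, hgd, hd⟩ := hB
    have h1 : ∀ μ ∈ line g d, adj a μ := by
      intro μ hμ
      by_cases hμg : μ = g
      · rw [hμg]; exact hag
      · have hga := hsymm _ _ hag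
        have : d ∉ line g a := by rw [hcomm g a hga]; exact hd
        exact hG2 g a d a hga hgd this (hmem _ _ hga).2 had μ hμ hμg
    have h2 : a ∉ line g d := by
      intro ha
      have := hline g d a hgd ha (hne a g hag)
      apply hd
      rw [hcomm a g hag, this.2]; exact (hmem _ _ hgd).2
    have h3 : ∀ μ ∈ line g d, ∀ μ' ∈ line g d, μ ≠ μ' → μ' ∉ line a μ := by
      intro μ hμ μ' hμ' hne' hcon
      have e1 := (L5 a μ μ μ' (h1 μ hμ) (hmem _ _ (h1 μ hμ)).2 hcon hne').2
      have e2 := (L5 g d μ μ' hgd hμ hμ' hne').2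
      apply h2
      rw [← e2, e1]; exact (hmem _ _ (h1 μ hμ)).1
    have h4 : ∀ μ ∈ line g d, ∀ μ' ∈ line g d, μ ≠ μ' → ∀ e ∈ line a μ', e ≠ a → adj μ e := by
      intro μ hμ μ' hμ' hne' e he hea
      exact hG2 a μ μ' μ (h1 μ hμ) (h1 μ' hμ') (h3 μ hμ μ' hμ' hne') (hmem _ _ (h1 μ hμ)).2
        (L5 g d μ μ' hgd hμ hμ' hne').1 e he hea
    have h5 : ∀ μ ∈ line g d, ∀ μ' ∈ line g d, μ ≠ μ' → ∀ ξ ∈ line a μ, ξ ≠ a →
        ∀ e ∈ line a μ', e ≠ a → adj ξ e := by
      intro μ hμ μ' hμ' hne' ξ hξ hξa e he hea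
      have := hG2 a μ' μ e (h1 μ' hμ') (h1 μ hμ) (h3 μ' hμ' μ hμ (Ne.symm hne')) he
        (hsymm _ _ (h4 μ hμ μ' hμ' hne' e he hea)) ξ hξ hξa
      exact hsymm _ _ this
    let X1 : Finset Ω := (L g d).biUnion (fun μ => (L a μ).erase a)
    have hX1card : X1.card = 12 := by
      rw [Finset.card_biUnion]
      · rw [Finset.sum_const_nat (m := 3)]
        · rw [hLcard _ _ hgd]
        · intro μ hμ
          rw [hLmem] at hμ
          rw [Finset.card_erase_of_mem (by rw [hLmem]; exact (hmem _ _ (h1 μ hμ)).1),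
            hLcard _ _ (h1 μ hμ)]
      · intro μ hμ μ' hμ' hne'
        rw [Finset.mem_coe, hLmem] at hμ hμ'
        change Disjoint ((L a μ).erase a) ((L a μ').erase a)
        rw [Finset.disjoint_left]
        intro ξ hξ hξ'
        rw [Finset.mem_erase, hLmem] at hξ hξ'
        have e1 := (hline a μ ξ (h1 μ hμ) hξ.2 hξ.1).2
        have e2 := (hline a μ' ξ (h1 μ' hμ') hξ'.2 hξ'.1).2
        apply h3 μ hμ μ' hμ' hne'
        rw [← e1, e2]; exact (hmem _ _ (h1 μ' hμ')).2
    have hX1D : X1 = D a := by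
      apply Finset.eq_of_subset_of_card_le
      · intro ξ hξ
        rw [Finset.mem_biUnion] at hξ
        obtain ⟨μ, hμ, hξ⟩ := hξ
        rw [Finset.mem_erase, hLmem] at hξ
        rw [hLmem] at hμ
        rw [hDmem]; exact (hline a μ ξ (h1 μ hμ) hξ.2 hξ.1).1
      · rw [hX1card, hDcard]
    have h7 : ∀ ξ, adj a ξ → ∀ y, y ≠ ξ → (y = a ∨ adj a y) → adj ξ y := by
      intro ξ haξ y hyξ hy
      have hξ1 : ξ ∈ X1 := by rw [hX1D, hDmem]; exact haξ
      rw [Finset.mem_biUnion] at hξ1
      obtain ⟨μ, hμ, hξ⟩ := hξ1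
      rw [Finset.mem_erase, hLmem] at hξ
      rw [hLmem] at hμ
      rcases hy with rfl | hay
      · exact hsymm _ _ haξ
      · have hy1 : y ∈ X1 := by rw [hX1D, hDmem]; exact hay
        rw [Finset.mem_biUnion] at hy1
        obtain ⟨μ', hμ', hy2⟩ := hy1
        rw [Finset.mem_erase, hLmem] at hy2
        rw [hLmem] at hμ'
        by_cases hμμ' : μ = μ'
        · subst hμμ'
          exact (L5 a μ ξ y (h1 μ hμ) hξ.2 hy2.2 (Ne.symm hyξ)).1
        · exact h5 μ hμ μ' hμ' hμμ' ξ hξ.2 hξ.1 y hy2.2 hy2.1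
    obtain ⟨b, hb⟩ : ((insert a (D a))ᶜ).Nonempty := by
      rw [← Finset.card_pos, Finset.card_compl, hX, hcard]; norm_num
    have hbX : b ∉ insert a (D a) := Finset.mem_compl.mp hb
    have hsub : D b ⊆ (insert b (insert a (D a)))ᶜ := by
      intro y hy
      rw [hDmem] at hy
      rw [Finset.mem_compl, Finset.mem_insert, Finset.mem_insert, hDmem]
      rintro (rfl | rfl | hay)
      · exact hirr _ hy
      · exact hbX (Finset.mem_insert_of_mem ((hDmem _ _).mpr (hsymm _ _ hy)))
      · have hDy : (insert a (D a)).erase y = D y := by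
          apply Finset.eq_of_subset_of_card_le
          · intro z hz
            rw [Finset.mem_erase, Finset.mem_insert, hDmem] at hz
            rw [hDmem]
            exact h7 y hay z hz.1 hz.2
          · rw [hDcard, Finset.card_erase_of_mem
              (Finset.mem_insert_of_mem ((hDmem _ _).mpr hay)), hX]
        have : b ∈ D y := (hDmem _ _).mpr (hsymm _ _ hy)
        rw [← hDy] at this
        exact hbX (Finset.mem_of_mem_erase this)
    have hc := Finset.card_le_card hsub
    rw [hDcard, Finset.card_compl, Finset.card_insert_of_notMem hbX, hX, hcard] at hc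
    omega

end Cfsg.Agent.Lead
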