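import Mathlib

set_option autoImplicit false

namespace Cfsg.Agent.Lead

open Real in
/-- Erdős' inequality with two extra factors `2 * y`, from `Bertrand.real_main_inequality`
at `y / 4`. -/
theorem real_main_inequality_three {y : ℝ} (hy : (2048 : ℝ) ≤ y) :
    y * (2 * y) ^ 2 * (2 * y) ^ √(2 * y) * 4 ^ (2 * y / 3) ≤ 4 ^ y := by
  obtain ⟨x, rfl⟩ : ∃ x, y = 4 * x := ⟨y / 4, by ring⟩
  have hx : (512 : ℝ) ≤ x := by linarith
  have hx0 : (0 : ℝ) < x := by linarith
  have hm := Bertrand.real_main_inequality hx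
  set e := √(2 * x) with he
  have he0 : 0 ≤ e := Real.sqrt_nonneg _
  have hsq : √(2 * (4 * x)) = 2 * e := by
    rw [he, show 2 * (4 * x) = 2 ^ 2 * (2 * x) by ring, Real.sqrt_mul (by positivity),
      Real.sqrt_sq (by norm_num)]
  rw [hsq]
  have h4 : (x * (2 * x) ^ e * 4 ^ (2 * x / 3)) ^ 4 ≤ ((4 : ℝ) ^ x) ^ 4 :=
    pow_le_pow_left₀ (by positivity) hm 4
  have e1 : ((4 : ℝ) ^ x) ^ 4 = 4 ^ (4 * x) := by
    rw [← Real.rpow_natCast, ← Real.rpow_mul (by norm_num)]
    congr 1; push_cast; ring
  have e2 : (x * (2 * x) ^ e * 4 ^ (2 * x / 3)) ^ 4 =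
      x ^ 4 * (2 * x) ^ (4 * e) * 4 ^ (2 * (4 * x) / 3) := by
    rw [mul_pow, mul_pow, ← Real.rpow_natCast ((2 * x) ^ e), ← Real.rpow_mul (by positivity),
      ← Real.rpow_natCast ((4 : ℝ) ^ (2 * x / 3)), ← Real.rpow_mul (by norm_num)]
    have a1 : e * ((4 : ℕ) : ℝ) = 4 * e := by push_cast; ring
    have a2 : 2 * x / 3 * ((4 : ℕ) : ℝ) = 2 * (4 * x) / 3 := by push_cast; ring
    rw [a1, a2]
  rw [e1, e2] at h4
  refine le_trans ?_ h4
  apply mul_le_mul_of_nonneg_right _ (by positivity)
  have e3 : (2 * x) ^ (4 * e) = (2 * (4 * x)) ^ (2 * e) * (x / 2) ^ (2 * e) := by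
    rw [← Real.mul_rpow (by positivity) (by positivity),
      show 2 * (4 * x) * (x / 2) = (2 * x) ^ (2 : ℕ) by ring, ← Real.rpow_natCast,
      ← Real.rpow_mul (by positivity)]
    congr 1; push_cast; ring
  have h1 : (1 : ℝ) ≤ (x / 2) ^ (2 * e) := Real.one_le_rpow (by linarith) (by positivity)
  rw [e3]
  have h8 : (0 : ℝ) ≤ (2 * (4 * x)) ^ (2 * e) := by positivity
  have h9 : 4 * x * (2 * (4 * x)) ^ 2 ≤ x ^ 4 := by
    have : 4 * x * (2 * (4 * x)) ^ 2 = 256 * x ^ 3 := by ring
    rw [this]
    have hx3 : (0 : ℝ) ≤ x ^ 3 := by positivity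
    nlinarith
  calc 4 * x * (2 * (4 * x)) ^ 2 * (2 * (4 * x)) ^ (2 * e)
      ≤ x ^ 4 * (2 * (4 * x)) ^ (2 * e) * 1 := by
        rw [mul_one]; exact mul_le_mul_of_nonneg_right h9 h8
    _ ≤ x ^ 4 * (2 * (4 * x)) ^ (2 * e) * (x / 2) ^ (2 * e) := by
        apply mul_le_mul_of_nonneg_left h1 (by positivity)
    _ = x ^ 4 * ((2 * (4 * x)) ^ (2 * e) * (x / 2) ^ (2 * e)) := by ring

/-- The natural-number form. -/
theorem nat_main_inequality_three {n : ℕ} (n_large : 2048 ≤ n) :
    n * (2 * n) ^ 2 * (2 * n) ^ Nat.sqrt (2 * n) * 4 ^ (2 * n / 3) ≤ 4 ^ n := by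
  rw [← @Nat.cast_le ℝ]
  push_cast
  rw [← Real.rpow_natCast _ (Nat.sqrt (2 * n)), ← Real.rpow_natCast _ (2 * n / 3),
    ← Real.rpow_natCast _ n]
  refine _root_.trans ?_ (real_main_inequality_three (by exact_mod_cast n_large))
  have n2_pos : (1 : ℝ) ≤ 2 * n := by
    have : (1 : ℝ) ≤ n := by exact_mod_cast (by omega : 1 ≤ n)
    linarith
  gcongr
  · exact_mod_cast Real.nat_sqrt_le_real_sqrt
  · norm_num1
  · exact Nat.cast_div_le.trans (by norm_cast)


open Nat in
/-- Upper bound for the central binomial coefficient in terms of the number of primes in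
`(n, 2n]` (Erdős). -/
theorem centralBinom_le_of_few_primes (n : ℕ) (n_large : 2 < n) :
    Nat.centralBinom n ≤ (2 * n) ^ Nat.sqrt (2 * n) * 4 ^ (2 * n / 3) *
      (2 * n) ^ ((Finset.Ioc n (2 * n)).filter Nat.Prime).card := by
  have n_pos : 0 < n := (Nat.zero_le _).trans_lt n_large
  have n2_pos : 1 ≤ 2 * n := mul_pos (zero_lt_two' ℕ) n_pos
  let f : ℕ → ℕ := fun x => x ^ n.centralBinom.factorization x
  have hprod : ∏ p ∈ Finset.range (2 * n + 1), f p = n.centralBinom :=
    n.prod_pow_factorization_centralBinom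
  rw [← hprod, ← Finset.prod_filter_mul_prod_filter_not (Finset.range (2 * n + 1)) (· ≤ n)]
  apply mul_le_mul'
  · -- primes up to `n`
    have hsmall : ∏ x ∈ Finset.range (2 * n + 1) with x ≤ n, f x =
        ∏ x ∈ Finset.range (2 * n / 3 + 1), f x := by
      symm
      apply Finset.prod_subset
      · intro x hx
        rw [Finset.mem_range] at hx
        rw [Finset.mem_filter, Finset.mem_range]
        have : 2 * n / 3 ≤ n := by omega
        omega
      · intro x hx h2x
        rw [Finset.mem_filter, Finset.mem_range] at hx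
        rw [Finset.mem_range] at h2x
        by_cases hxp : x.Prime
        · have h3 : 2 * n < 3 * x := by omega
          simp only [f]
          rw [factorization_centralBinom_of_two_mul_self_lt_three_mul n_large hx.2 h3,
            Nat.pow_zero]
        · simp only [f]
          rw [factorization_eq_zero_of_not_prime n.centralBinom hxp, Nat.pow_zero]
    rw [hsmall]
    let S := {p ∈ Finset.range (2 * n / 3 + 1) | Nat.Prime p}
    have : ∏ x ∈ S, f x = ∏ x ∈ Finset.range (2 * n / 3 + 1), f x := by
      refine Finset.prod_filter_of_ne fun p _ h => ?_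
      contrapose h; dsimp only [f]
      rw [factorization_eq_zero_of_not_prime n.centralBinom h, _root_.pow_zero]
    rw [← this, ← Finset.prod_filter_mul_prod_filter_not S (· ≤ sqrt (2 * n))]
    apply mul_le_mul'
    · refine (Finset.prod_le_prod' fun p _ => (?_ : f p ≤ 2 * n)).trans ?_
      · exact pow_factorization_choose_le (mul_pos two_pos n_pos)
      have : (Finset.Icc 1 (sqrt (2 * n))).card = sqrt (2 * n) := by
        rw [card_Icc, Nat.add_sub_cancel]
      rw [Finset.prod_const]
      refine pow_right_mono₀ n2_pos ((Finset.card_le_card fun x hx => ?_).trans this.le)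
      obtain ⟨h1, h2⟩ := Finset.mem_filter.1 hx
      exact Finset.mem_Icc.mpr ⟨(Finset.mem_filter.1 h1).2.one_lt.le, h2⟩
    · refine le_trans ?_ (primorial_le_four_pow (2 * n / 3))
      refine (Finset.prod_le_prod' fun p hp => (?_ : f p ≤ p)).trans ?_
      · obtain ⟨h1, h2⟩ := Finset.mem_filter.1 hp
        refine (pow_right_mono₀ (Finset.mem_filter.1 h1).2.one_lt.le ?_).trans (pow_one p).le
        exact Nat.factorization_choose_le_one (sqrt_lt'.mp <| not_le.1 h2)
      refine Finset.prod_le_prod_of_subset_of_one_le' (Finset.filter_subset _ _) ?_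
      exact fun p hp _ => (Finset.mem_filter.1 hp).2.one_lt.le
  · -- primes in `(n, 2n]`
    have hbig : ∏ x ∈ Finset.range (2 * n + 1) with ¬ x ≤ n, f x =
        ∏ x ∈ (Finset.Ioc n (2 * n)).filter Nat.Prime, f x := by
      symm
      apply Finset.prod_subset
      · intro x hx
        rw [Finset.mem_filter, Finset.mem_Ioc] at hx
        rw [Finset.mem_filter, Finset.mem_range]
        omega
      · intro x hx hx2
        rw [Finset.mem_filter, Finset.mem_range] at hx
        have hxp : ¬ x.Prime := by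
          intro hxp
          apply hx2
          rw [Finset.mem_filter, Finset.mem_Ioc]
          exact ⟨⟨by omega, by omega⟩, hxp⟩
        simp only [f]
        rw [factorization_eq_zero_of_not_prime n.centralBinom hxp, Nat.pow_zero]
    rw [hbig, ← Finset.prod_const]
    refine Finset.prod_le_prod' fun p hp => ?_
    rw [Finset.mem_filter, Finset.mem_Ioc] at hp
    have h1 : n.centralBinom.factorization p ≤ 1 := by
      apply Nat.factorization_choose_le_one
      nlinarith [hp.1.1]
    calc f p ≤ p ^ 1 := pow_right_mono₀ hp.2.one_lt.le h1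
      _ = p := pow_one p
      _ ≤ 2 * n := hp.1.2

/-- For `n ≥ 2048` there are at least three primes in `(n, 2n]`. -/
theorem three_le_card_primes (n : ℕ) (hn : 2048 ≤ n) :
    3 ≤ ((Finset.Ioc n (2 * n)).filter Nat.Prime).card := by
  by_contra h
  have hc : ((Finset.Ioc n (2 * n)).filter Nat.Prime).card ≤ 2 := by omega
  have h1 : 4 ^ n < n * n.centralBinom := Nat.four_pow_lt_mul_centralBinom n (by omega)
  have h2 := centralBinom_le_of_few_primes n (by omega)
  have h3 : (2 * n) ^ ((Finset.Ioc n (2 * n)).filter Nat.Prime).card ≤ (2 * n) ^ 2 :=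
    Nat.pow_le_pow_right (by omega) hc
  have h4 := nat_main_inequality_three hn
  have h5 : n * n.centralBinom ≤ 4 ^ n := by
    calc n * n.centralBinom
        ≤ n * ((2 * n) ^ Nat.sqrt (2 * n) * 4 ^ (2 * n / 3) * (2 * n) ^ 2) :=
          Nat.mul_le_mul_left _ (h2.trans (Nat.mul_le_mul_left _ h3))
      _ = n * (2 * n) ^ 2 * (2 * n) ^ Nat.sqrt (2 * n) * 4 ^ (2 * n / 3) := by ring
      _ ≤ 4 ^ n := h4
  omega

/-- For `m ≥ 17` there are primes `p < q` in `(m/2, m]` at distance at least `4`. -/
theorem exists_two_primes_gap (m : ℕ) (hm : 17 ≤ m) :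
    ∃ p q : ℕ, p.Prime ∧ q.Prime ∧ m < 2 * p ∧ p + 4 ≤ q ∧ q ≤ m := by
  rcases lt_or_ge m 4096 with h | h
  · by_cases h1 : m < 22
    · exact ⟨11, 17, by norm_num, by norm_num, by omega, by omega, by omega⟩
    by_cases h2 : m < 26
    · exact ⟨13, 19, by norm_num, by norm_num, by omega, by omega, by omega⟩
    by_cases h3 : m < 38
    · exact ⟨19, 23, by norm_num, by norm_num, by omega, by omega, by omega⟩
    by_cases h4 : m < 62
    · exact ⟨31, 37, by norm_num, by norm_num, by omega, by omega, by omega⟩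
    by_cases h5 : m < 106
    · exact ⟨53, 59, by norm_num, by norm_num, by omega, by omega, by omega⟩
    by_cases h6 : m < 194
    · exact ⟨97, 101, by norm_num, by norm_num, by omega, by omega, by omega⟩
    by_cases h7 : m < 362
    · exact ⟨181, 191, by norm_num, by norm_num, by omega, by omega, by omega⟩
    by_cases h8 : m < 706
    · exact ⟨353, 359, by norm_num, by norm_num, by omega, by omega, by omega⟩
    by_cases h9 : m < 1382
    · exact ⟨691, 701, by norm_num, by norm_num, by omega, by omega, by omega⟩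
    by_cases h10 : m < 2746
    · exact ⟨1373, 1381, by norm_num, by norm_num, by omega, by omega, by omega⟩
    · exact ⟨2731, 2741, by norm_num, by norm_num, by omega, by omega, by omega⟩
  · have hn : 2048 ≤ m / 2 := by omega
    have h3 := three_le_card_primes (m / 2) hn
    obtain ⟨a, ha, b, hb, c, hc, hab, hac, hbc⟩ := Finset.two_lt_card.mp h3
    rw [Finset.mem_filter, Finset.mem_Ioc] at ha hb hc
    have odd : ∀ r : ℕ, r.Prime → m / 2 < r → r % 2 = 1 := by
      intro r hr hlt
      rcases hr.eq_two_or_odd with h2 | h2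
      · omega
      · exact h2
    have oa := odd a ha.2 ha.1.1
    have ob := odd b hb.2 hb.1.1
    have oc := odd c hc.2 hc.1.1
    -- order the three primes
    rcases lt_trichotomy a b with hab' | hab' | hab'
    · rcases lt_trichotomy b c with hbc' | hbc' | hbc'
      · exact ⟨a, c, ha.2, hc.2, by omega, by omega, by omega⟩
      · exact absurd hbc' hbc
      · rcases lt_trichotomy a c with hac' | hac' | hac'
        · exact ⟨a, b, ha.2, hb.2, by omega, by omega, by omega⟩
        · exact absurd hac' hac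
        · exact ⟨c, b, hc.2, hb.2, by omega, by omega, by omega⟩
    · exact absurd hab' hab
    · rcases lt_trichotomy a c with hac' | hac' | hac'
      · exact ⟨b, c, hb.2, hc.2, by omega, by omega, by omega⟩
      · exact absurd hac' hac
      · rcases lt_trichotomy b c with hbc' | hbc' | hbc'
        · exact ⟨b, a, hb.2, ha.2, by omega, by omega, by omega⟩
        · exact absurd hbc' hbc
        · exact ⟨c, a, hc.2, ha.2, by omega, by omega, by omega⟩

end Cfsg.Agent.Lead
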